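import Mathlib
import Cfsg.Agent.Lib.HSRank3.Graph
import Cfsg.Prelude.Def_Spor_Conway
import Cfsg.Agent.Lib.Sporadic.LeechHSs
import Cfsg.Agent.S0405
import Cfsg.Agent.S1583
import Cfsg.Agent.S1584

/-!
# The group `Cfsg.Spor.HS` acts on a strongly regular graph with parameters (100, 22, 0, 6)
-/

set_option autoImplicit false

namespace Cfsg.Agent.Lib.HSRank3.HSSide

open Cfsg MulAction
open Cfsg.Agent.Lib.Sporadic.LeechAut Cfsg.Agent.Lib.Sporadic.LeechA0 Cfsg.Agent.Lib.Sporadic.LeechHS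

abbrev VS := GolayPt → ℤ

/-- The hundred minimal vectors. -/
def XS (v w : leechLattice) : Set leechLattice :=
  {x | sqNorm (x : VS) = 32 ∧ dotInt (v : VS) (x : VS) = 24 ∧ dotInt (w : VS) (x : VS) = -24}

/-- The joint stabiliser. -/
abbrev KK (v w : leechLattice) : Subgroup Co0 := stabilizer Co0 v ⊓ stabilizer Co0 w

theorem smul_mem {v w : leechLattice} (g : KK v w) {x : leechLattice} (hx : x ∈ XS v w) : g.1 • x ∈ XS v w := by
  obtain ⟨h1, h2, h3⟩ := hx
  have hv : g.1 • v = v := (Subgroup.mem_inf.1 g.2).1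
  have hw : g.1 • w = w := (Subgroup.mem_inf.1 g.2).2
  refine ⟨?_, ?_, ?_⟩
  · rw [co0_sqNorm]
    exact h1
  · rw [← h2, ← co0_dotInt g.1 v x, hv]
  · rw [← h3, ← co0_dotInt g.1 w x, hw]

/-- The action on the hundred vectors. -/
instance act (v w : leechLattice) : MulAction (KK v w) (XS v w) where
  smul g x := ⟨g.1 • x.1, smul_mem g x.2⟩
  one_smul x := Subtype.ext (one_smul Co0 x.1)
  mul_smul g g' x := Subtype.ext (mul_smul g.1 g'.1 x.1)

theorem smul_coe {v w : leechLattice} (g : KK v w) (x : XS v w) : ((g • x : XS v w) : leechLattice) = g.1 • x.1 := rfl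

theorem exists_graph (v w : leechLattice) (hv : sqNorm (v : VS) = 48) (hw : sqNorm (w : VS) = 48)
    (hvw : dotInt (v : VS) (w : VS) = -32) :
    ∃ (_ : Fintype (XS v w)) (_ : DecidableEq (XS v w)) (Γ : SimpleGraph (XS v w)) (_ : DecidableRel Γ.Adj),
      Γ.IsSRGWith 100 22 0 6 ∧ ∀ (g : KK v w) (x y : XS v w), Γ.Adj (g • x) (g • y) ↔ Γ.Adj x y := by
  classical
  obtain ⟨hc100, htr⟩ := Cfsg.Agent.S1583.result v w hv hw hvw
  have hfin : (XS v w).Finite := Set.finite_of_ncard_ne_zero (by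
    change (XS v w).ncard ≠ 0
    have : (XS v w).ncard = 100 := hc100
    omega)
  letI : Fintype (XS v w) := hfin.fintype
  have hcard : Fintype.card (XS v w) = 100 := by
    rw [← Nat.card_eq_fintype_card, Nat.card_coe_set_eq]
    exact hc100
  haveI htrans : IsPretransitive (KK v w) (XS v w) := by
    refine ⟨?_⟩
    rintro ⟨x, hx⟩ ⟨y, hy⟩
    obtain ⟨g, h1, h2, h3⟩ := htr x hx y hy
    exact ⟨⟨g, Subgroup.mem_inf.2 ⟨h1, h2⟩⟩, Subtype.ext h3⟩
  obtain ⟨a⟩ : Nonempty (XS v w) := by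
    apply Fintype.card_pos_iff.mp
    omega
  obtain ⟨h22, h77, htr2⟩ := Cfsg.Agent.S1584.result v w a.1 hv hw hvw a.2
  -- the two orbits
  have hcoe : ∀ (T : Set leechLattice) (O : Set (XS v w)), (∀ y : XS v w, y ∈ O ↔ y.1 ∈ T) → (∀ y ∈ T, y ∈ XS v w) → O.ncard = T.ncard := by
    intro T O h1 h2
    rw [← Set.ncard_image_of_injective O Subtype.val_injective]
    congr 1
    ext y
    constructor
    · rintro ⟨z, hz, rfl⟩
      exact (h1 z).1 hz
    · intro hy
      exact ⟨⟨y, h2 y hy⟩, (h1 _).2 hy, rfl⟩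
  obtain ⟨b, hb⟩ : ∃ b, b ∈ {y : leechLattice | y ∈ XS v w ∧ dotInt (a.1 : VS) (y : VS) = 8} :=
    Set.nonempty_of_ncard_ne_zero (by rw [show {y : leechLattice | y ∈ XS v w ∧ dotInt (a.1 : VS) (y : VS) = 8}.ncard = 22 from h22]; norm_num)
  obtain ⟨c, hc⟩ : ∃ c, c ∈ {y : leechLattice | y ∈ XS v w ∧ y ≠ a.1 ∧ dotInt (a.1 : VS) (y : VS) ≠ 8} :=
    Set.nonempty_of_ncard_ne_zero (by rw [show {y : leechLattice | y ∈ XS v w ∧ y ≠ a.1 ∧ dotInt (a.1 : VS) (y : VS) ≠ 8}.ncard = 77 from h77]; norm_num)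
  have hxx : dotInt (a.1 : VS) (a.1 : VS) = 32 := by
    rw [Cfsg.Agent.Lib.Sporadic.LeechTree.dotInt_self]
    exact a.2.1
  have hstab_dot : ∀ (s : stabilizer (KK v w) a) (y : XS v w), dotInt (a.1 : VS) (((s • y : XS v w) : leechLattice) : VS) = dotInt (a.1 : VS) (y.1 : VS) := by
    intro s y
    have h1 : s.1.1 • a.1 = a.1 := congrArg Subtype.val s.2
    have h2 := co0_dotInt s.1.1 a.1 y.1
    rw [h1] at h2
    exact h2
  have hstab_ne : ∀ (s : stabilizer (KK v w) a) (y : XS v w), y ≠ a → (s • y : XS v w) ≠ a := by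
    intro s y hy h
    apply hy
    have h1 : s⁻¹ • (s • y) = s⁻¹ • a := by rw [h]
    rw [inv_smul_smul] at h1
    rw [h1]
    exact (s⁻¹).2
  have hstab_tr : ∀ y y' : XS v w, y ≠ a → y' ≠ a →
      (dotInt (a.1 : VS) (y.1 : VS) = 8 ↔ dotInt (a.1 : VS) (y'.1 : VS) = 8) → ∃ s : stabilizer (KK v w) a, s • y = y' := by
    intro y y' h1 h2 h3
    obtain ⟨g, hg1, hg2, hg3, hg4⟩ := htr2 y.1 y.2 y'.1 y'.2 (fun h => h1 (Subtype.ext h)) (fun h => h2 (Subtype.ext h)) h3
    exact ⟨⟨⟨g, Subgroup.mem_inf.2 ⟨hg1, hg2⟩⟩, Subtype.ext hg3⟩, Subtype.ext hg4⟩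
  have hab : (⟨b, hb.1⟩ : XS v w) ≠ a := by
    intro h
    have h1 : dotInt (a.1 : VS) (a.1 : VS) = 8 := by
      have := hb.2
      rwa [show b = a.1 from congrArg Subtype.val h] at this
    omega
  have hac : (⟨c, hc.1⟩ : XS v w) ≠ a := fun h => hc.2.1 (congrArg Subtype.val h)
  have horbb : (orbit (stabilizer (KK v w) a) (⟨b, hb.1⟩ : XS v w)).ncard = 22 := by
    rw [hcoe {y : leechLattice | y ∈ XS v w ∧ dotInt (a.1 : VS) (y : VS) = 8} _ ?_ (fun y hy => hy.1)]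
    · exact h22
    · intro y
      constructor
      · rintro ⟨s, rfl⟩
        refine ⟨(s • (⟨b, hb.1⟩ : XS v w)).2, ?_⟩
        exact (hstab_dot s _).trans hb.2
      · rintro ⟨-, h⟩
        by_cases hya : y = a
        · subst hya
          omega
        · obtain ⟨s, hs⟩ := hstab_tr ⟨b, hb.1⟩ y hab hya (by
            constructor
            · intro _; exact h
            · intro _; exact hb.2)
          exact ⟨s, hs⟩
  have horbc : (orbit (stabilizer (KK v w) a) (⟨c, hc.1⟩ : XS v w)).ncard = 77 := by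
    rw [hcoe {y : leechLattice | y ∈ XS v w ∧ y ≠ a.1 ∧ dotInt (a.1 : VS) (y : VS) ≠ 8} _ ?_ (fun y hy => hy.1)]
    · exact h77
    · intro y
      constructor
      · rintro ⟨s, rfl⟩
        refine ⟨(s • (⟨c, hc.1⟩ : XS v w)).2, ?_, ?_⟩
        · intro h
          exact hstab_ne s _ hac (Subtype.ext h)
        · intro h
          exact hc.2.2 ((hstab_dot s _).symm.trans h)
      · rintro ⟨-, h1, h2⟩
        have hya : y ≠ a := fun h => h1 (congrArg Subtype.val h)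
        obtain ⟨s, hs⟩ := hstab_tr ⟨c, hc.1⟩ y hac hya (by
          constructor
          · intro h; exact (hc.2.2 h).elim
          · intro h; exact (h2 h).elim)
        exact ⟨s, hs⟩
  obtain ⟨Γ, inst, h1, h2⟩ := Cfsg.Agent.Lib.HSRank3.Graph.exists_srg (H := KK v w) hcard a ⟨b, hb.1⟩ ⟨c, hc.1⟩ horbb horbc
  exact ⟨inferInstance, inferInstance, Γ, inst, h1, h2⟩

/-- The joint stabilisers and the group `Spor.HS`. -/
def equivHS : ↥(stabilizer Co0 Spor.leechV ⊓ stabilizer Co0 Spor.leechU') ≃* Spor.HS where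
  toFun g := ⟨g.1.1, ⟨⟨g.1.2, (Subgroup.mem_inf.1 g.2).1⟩, (Subgroup.mem_inf.1 g.2).2⟩⟩
  invFun p := ⟨⟨p.1, p.2.1.1⟩, Subgroup.mem_inf.2 ⟨p.2.1.2, p.2.2⟩⟩
  left_inv _ := rfl
  right_inv _ := rfl
  map_mul' _ _ := rfl

/-- The second vector of the pair. -/
def wHS : leechLattice := -(Spor.leechV + Spor.leechU')

theorem hsq_V : sqNorm (Spor.leechV : VS) = 48 := by
  show sqNorm Spor.vecV = 48
  decide +kernel

theorem hsq_W : sqNorm (wHS : VS) = 48 := by
  show sqNorm (-(Spor.vecV + Spor.vecU')) = 48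
  decide +kernel

theorem hdot_VW : dotInt (Spor.leechV : VS) (wHS : VS) = -32 := by
  show dotInt Spor.vecV (-(Spor.vecV + Spor.vecU')) = -32
  decide +kernel

/-- `Spor.HS` as the joint stabiliser of the pair. -/
noncomputable def equivKK : Spor.HS ≃* KK Spor.leechV wHS :=
  equivHS.symm.trans (MulEquiv.subgroupCongr (Cfsg.Agent.Lib.Sporadic.LeechHS.stab_pair_eq Spor.leechV Spor.leechU'))

theorem isHS : Cfsg.IsHS Spor.HS := by
  obtain ⟨h1, h2⟩ := Cfsg.Agent.S0405.result Spor.leechV wHS hsq_V hsq_W hdot_VW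
  haveI := h1
  exact ⟨equivKK.isSimpleGroup, (Nat.card_congr equivKK.toEquiv).trans h2⟩

/-- The homomorphism to the automorphisms of a graph given by an action. -/
def toAut {H Ω : Type*} [Group H] [MulAction H Ω] (Γ : SimpleGraph Ω)
    (h : ∀ (g : H) (x y : Ω), Γ.Adj (g • x) (g • y) ↔ Γ.Adj x y) : H →* (Γ ≃g Γ) where
  toFun g := { toEquiv := MulAction.toPerm g, map_rel_iff' := h g _ _ }
  map_one' := by
    ext x
    exact one_smul _ x
  map_mul' g g' := by
    ext x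
    exact mul_smul g g' x

theorem toAut_apply {H Ω : Type*} [Group H] [MulAction H Ω] (Γ : SimpleGraph Ω)
    (h : ∀ (g : H) (x y : Ω), Γ.Adj (g • x) (g • y) ↔ Γ.Adj x y) (g : H) (x : Ω) : toAut Γ h g x = g • x := rfl

/-- The group `Spor.HS` acts faithfully on a graph with parameters (100, 22, 0, 6). -/
theorem hs_data : ∃ (Ω' : Type) (_ : Fintype Ω') (_ : DecidableEq Ω') (Γ' : SimpleGraph Ω') (_ : DecidableRel Γ'.Adj)
    (φ : Spor.HS →* (Γ' ≃g Γ')), Γ'.IsSRGWith 100 22 0 6 ∧ Function.Injective φ := by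
  classical
  obtain ⟨i1, i2, Γ, i3, h1, h2⟩ := exists_graph Spor.leechV wHS hsq_V hsq_W hdot_VW
  refine ⟨XS Spor.leechV wHS, i1, i2, Γ, i3, (toAut Γ h2).comp equivKK.toMonoidHom, h1, ?_⟩
  obtain ⟨hs, -⟩ := isHS
  have hn : ((toAut Γ h2).comp equivKK.toMonoidHom).ker.Normal := inferInstance
  rcases hs.eq_bot_or_eq_top_of_normal _ hn with h | h
  · exact (MonoidHom.ker_eq_bot_iff _).1 h
  · exfalso
    obtain ⟨hc100, htr⟩ := Cfsg.Agent.S1583.result Spor.leechV wHS hsq_V hsq_W hdot_VW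
    have hcard : Fintype.card (XS Spor.leechV wHS) = 100 := h1.card
    obtain ⟨x, y, hxy⟩ : ∃ x y : XS Spor.leechV wHS, x ≠ y := by
      apply Fintype.exists_pair_of_one_lt_card
      omega
    obtain ⟨g, g1, g2, g3⟩ := htr x.1 x.2 y.1 y.2
    let k : KK Spor.leechV wHS := ⟨g, Subgroup.mem_inf.2 ⟨g1, g2⟩⟩
    have hk : equivKK.symm k ∈ ((toAut Γ h2).comp equivKK.toMonoidHom).ker := by
      rw [h]
      trivial
    have hk1 : toAut Γ h2 k = 1 := by
      have := MonoidHom.mem_ker.1 hk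
      simpa using this
    have hk2 : toAut Γ h2 k x = x := by
      rw [hk1]
      rfl
    have hk3 : k • x = y := Subtype.ext g3
    rw [toAut_apply, hk3] at hk2
    exact hxy hk2.symm

end Cfsg.Agent.Lib.HSRank3.HSSide
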